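import Cfsg.Agent.StdRu.Scan

/-!
Checks of the search, part B.
-/

set_option autoImplicit false
set_option maxRecDepth 100000

namespace CfsgLib.StdRu

theorem part3 : part 3 = true := by decide +kernel

theorem part4 : part 4 = true := by decide +kernel

theorem part5 : part 5 = true := by decide +kernel

end CfsgLib.StdRu
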