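import Cfsg.Agent.StdRu.CensusA
import Cfsg.Agent.StdRu.CensusB
import Cfsg.Agent.StdRu.CensusC

/-!
The involutions of the double cover of the Rudvalis group up to conjugacy.
-/

set_option autoImplicit false
set_option maxRecDepth 100000

namespace CfsgLib.StdRu

open CfsgLib.Rudvalis CfsgLib.CosetEnum Cfsg Cfsg.Spor

theorem leaf_all {n : ℕ} (hn : n < 2 ^ 15) : leafOK (basePts.map (appM n)) n = true := by
  have key : ∀ t, part t = true → ∀ r < 2 ^ 12,
      leafOK (basePts.map (appM (r + 2 ^ 12 * t))) (r + 2 ^ 12 * t) = true := by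
    intro t h r hr
    simp only [part, forceN_eq] at h
    exact scan_sound 12 _ _ (by norm_num) (Nat.mul_mod_right _ _) rfl h r hr
  have ht : n / 2 ^ 12 < 8 := by omega
  have hp : part (n / 2 ^ 12) = true := by
    generalize n / 2 ^ 12 = t at ht
    interval_cases t
    exacts [part0, part1, part2, part3, part4, part5, part6, part7]
  have := key _ hp (n % 2 ^ 12) (Nat.mod_lt _ (by norm_num))
  rwa [Nat.mod_add_div] at this

theorem moved_pow (g : fourRu) (f : ℕ → ℕ) (h : ∀ n : V, (moved g n).val = f n.val) :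
    ∀ (k : ℕ) (n : V), (moved (g ^ k) n).val = f^[k] n.val
  | 0, n => by rw [pow_zero, moved_one]; rfl
  | k + 1, n => by
    rw [pow_succ, moved_mul, moved_pow g f h k, h, Function.iterate_succ_apply]

theorem basePts_lt : ∀ b ∈ basePts, b < NV := by decide +kernel

theorem el_one {m : ℕ} (hm : m < 2 ^ 15) (h : el m = 1) : m = 0 := by
  have hl := leaf_all hm
  simp only [leafOK, Bool.and_eq_true, Bool.or_eq_true, Nat.beq_eq] at hl
  refine hl.1.resolve_left ?_
  rw [Bool.not_eq_true', Bool.not_eq_false, agree_iff, List.map_id']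
  conv_rhs => rw [← List.map_id basePts]
  refine List.map_congr_left fun b hb => ?_
  have := moved_el m ⟨b, basePts_lt b hb⟩
  rw [h, moved_one] at this
  exact this.symm

theorem el_sq {m : ℕ} (hm : m < 2 ^ 15) (h : el m * el m = 1) : invSet.testBit m = true := by
  have hl := leaf_all hm
  simp only [leafOK, Bool.and_eq_true, Bool.or_eq_true, Nat.beq_eq] at hl
  rw [Nat.testBit_eq_decide_div_mod_eq, decide_eq_true_iff, ← Nat.shiftRight_eq_div_pow]
  refine hl.2.1.resolve_left ?_
  rw [Bool.not_eq_true', Bool.not_eq_false, agree_iff, List.map_map]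
  conv_rhs => rw [← List.map_id basePts]
  refine List.map_congr_left fun b hb => ?_
  have := congrArg (fun g : fourRu => (moved g ⟨b, basePts_lt b hb⟩).val) h
  simp only [moved_mul, moved_el, moved_one] at this
  exact this

/-- The central involution. -/
noncomputable def zEl : fourRu := iElt ^ 2

theorem moved_zEl (n : V) : (moved zEl n).val = 4 * (n.val / 4) + (n.val + 2) % 4 :=
  moved_iPow 2 n

theorem zEl_comm (g : fourRu) : g * zEl = zEl * g := (Commute.pow_right (iElt_comm g) 2).eq

theorem el_fourth {m : ℕ} (hm : m < 2 ^ 15) : el m ^ 4 ≠ zEl := by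
  intro h
  have hl := leaf_all hm
  simp only [leafOK, forceN_eq, Bool.and_eq_true, Bool.not_eq_true'] at hl
  have hb := hl.2.2
  rw [← Bool.not_eq_true, agree_iff] at hb
  refine hb ?_
  rw [List.map_map, show zPts = basePts.map (fun b => 4 * (b / 4) + (b + 2) % 4) from by decide]
  refine List.map_congr_left fun b hbm => ?_
  have := moved_pow _ _ (moved_el m) 4 ⟨b, basePts_lt b hbm⟩
  rw [h, moved_zEl] at this
  exact this.symm

theorem card_S : Nat.card (H 0) = 2 ^ 15 := card_H (fun _ => el_one) 15 0 rfl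

/-- Every 2-element is conjugate to an element with a mask. -/
theorem conj_into {x : fourRu} (hx : x ∈ G 0) {k : ℕ} (h : x ^ 2 ^ k = 1) :
    ∃ g ∈ G 0, ∃ m < 2 ^ 15, g * x * g⁻¹ = el m := by
  haveI : Finite fourRu := Finite.of_injective _ permHom_injective
  haveI : Fact (Nat.Prime 2) := ⟨Nat.prime_two⟩
  have hcard : Nat.card ((H 0).subgroupOf (G 0)) = 2 ^ 15 := by
    rw [Nat.card_congr (Subgroup.subgroupOfEquivOfLe H_zero_le).toEquiv, card_S]
  have hfac : (Nat.card (G 0)).factorization 2 = 15 := by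
    rw [card_G_zero, show 291852288000 = 2 ^ 15 * 8906625 by norm_num,
      Nat.factorization_mul (by norm_num) (by norm_num), Finsupp.add_apply,
      Nat.prime_two.factorization_pow, Finsupp.single_eq_same,
      Nat.factorization_eq_zero_of_not_dvd (by norm_num)]
  let P : Sylow 2 (G 0) := Sylow.ofCard ((H 0).subgroupOf (G 0)) (by rw [hcard, hfac])
  have hpg : IsPGroup 2 (Subgroup.zpowers (⟨x, hx⟩ : G 0)) := by
    refine IsPGroup.iff_card.2 ?_
    rw [Nat.card_zpowers]
    obtain ⟨j, -, hj⟩ := (Nat.dvd_prime_pow Nat.prime_two).1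
      (orderOf_dvd_of_pow_eq_one (x := (⟨x, hx⟩ : G 0)) (n := 2 ^ k) (Subtype.ext h))
    exact ⟨j, hj⟩
  obtain ⟨Q, hQ⟩ := hpg.exists_le_sylow
  obtain ⟨g, hg⟩ := MulAction.exists_smul_eq (G 0) Q P
  have hmem : g * ⟨x, hx⟩ * g⁻¹ ∈ (H 0).subgroupOf (G 0) := by
    have h1 : (⟨x, hx⟩ : G 0) ∈ (Q : Subgroup (G 0)) := hQ (Subgroup.mem_zpowers _)
    have h2 : g * ⟨x, hx⟩ * g⁻¹ ∈ ((g • Q : Sylow 2 (G 0)) : Subgroup (G 0)) := by
      rw [Sylow.coe_subgroup_smul]
      exact Subgroup.smul_mem_pointwise_smul _ (MulAut.conj g) _ h1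
    rw [hg] at h2
    exact h2
  rw [Subgroup.mem_subgroupOf] at hmem
  obtain ⟨m, hm, -, e⟩ := exists_el 15 0 rfl _ hmem
  exact ⟨g.1, g.2, m, hm, e⟩

/-- The roots of the fusion forest. -/
def rootMasks : List ℕ := [0, zMask, witA.1, witB.1]

/-- The element moving one entry of the forest to the previous one. -/
def movApp (k x : ℕ) : ℕ :=
  if Nat.blt k 15 then imgT (stab k) x else actF (fuseWords.getD (k - 15) []) x

/-- One entry of the forest. -/
def stepOK (e : ℕ × ℕ × ℕ) : Bool :=
  sameOn (fun b => forceN (appM e.2.2 b) fun y => movApp e.2.1 y)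
    (fun b => forceN (movApp e.2.1 b) fun y => appM e.1 y)

/-- The fusion forest reaches exactly the recorded set. -/
def forestOK : List (ℕ × ℕ × ℕ) → ℕ → Bool
  | [], S => Nat.beq S invSet
  | e :: l, S => stepOK e && (Nat.beq ((S >>> e.2.2) % 2) 1 &&
      forceN (S ||| 2 ^ e.1) fun S' => forestOK l S')

theorem forest_true : forestOK fusion (2 ^ 0 ||| 2 ^ zMask ||| 2 ^ witA.1 ||| 2 ^ witB.1) = true := by
  decide +kernel

theorem fuseWords_lt : (fuseWords.all fun w => w.all fun l => Nat.blt l 22) = true := by decide +kernel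

/-- Conjugate to a root. -/
def Good (m : ℕ) : Prop := ∃ g ∈ G 0, ∃ r ∈ rootMasks, g * el m * g⁻¹ = el r

theorem good_step {e : ℕ × ℕ × ℕ} (h : stepOK e = true) (hp : Good e.2.2) : Good e.1 := by
  obtain ⟨t, ht, hmv⟩ : ∃ t ∈ G 0, ∀ n : V, (moved t n).val = movApp e.2.1 n.val := by
    by_cases hk : e.2.1 < 15
    · refine ⟨sgen e.2.1, sgen_mem _, fun n => ?_⟩
      rw [moved_sgen, movApp, if_pos (by simpa [Nat.blt] using hk)]
    · have hw : ∀ l ∈ fuseWords.getD (e.2.1 - 15) [], l < 22 := by
        intro l hl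
        have hall := fuseWords_lt
        simp only [List.all_eq_true, Nat.blt, Nat.ble_eq] at hall
        rcases Nat.lt_or_ge (e.2.1 - 15) fuseWords.length with hlt | hge
        · rw [List.getD_eq_getElem _ _ hlt] at hl
          exact hall _ (List.getElem_mem hlt) l hl
        · rw [List.getD_eq_default _ _ hge] at hl
          simp at hl
      refine ⟨gword E _, gword_mem _ _ fun l hl => E_mem_zero (hw l hl), fun n => ?_⟩
      rw [moved_word _ hw, movApp, if_neg (by simpa [Nat.blt] using hk), actF_eq]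
  have heq : t * el e.2.2 = el e.1 * t := by
    refine eq_of_sameOn (fun n => ?_) (fun n => ?_) (of_sameOn h)
    · simp only [forceN_eq, moved_mul, hmv, moved_el]
    · simp only [forceN_eq, moved_mul, hmv, moved_el]
  obtain ⟨g, hg, r, hr, e'⟩ := hp
  refine ⟨g * t⁻¹, mul_mem hg (inv_mem ht), r, hr, ?_⟩
  rw [← e', show el e.1 = t * el e.2.2 * t⁻¹ by rw [heq, mul_inv_cancel_right]]
  group

theorem forest_sound : ∀ (l : List (ℕ × ℕ × ℕ)) (S : ℕ), forestOK l S = true →
    (∀ m, S.testBit m = true → Good m) → ∀ m, invSet.testBit m = true → Good m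
  | [], S, h, hS => by
    simp only [forestOK, Nat.beq_eq] at h
    exact h ▸ hS
  | e :: l, S, h, hS => by
    simp only [forestOK, forceN_eq, Bool.and_eq_true, Nat.beq_eq] at h
    obtain ⟨h1, h2, h3⟩ := h
    refine forest_sound l _ h3 fun m hm => ?_
    rw [Nat.testBit_or, Bool.or_eq_true, Nat.testBit_two_pow, decide_eq_true_iff] at hm
    rcases hm with hm | rfl
    · exact hS m hm
    · exact good_step h1 (hS _ (by
        rw [Nat.testBit_eq_decide_div_mod_eq, decide_eq_true_iff, ← Nat.shiftRight_eq_div_pow]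
        exact h2))

theorem good_of_invSet {m : ℕ} (hm : invSet.testBit m = true) : Good m := by
  refine forest_sound _ _ forest_true (fun r hr => ?_) m hm
  have hroot : ∀ r ∈ rootMasks, Good r := fun r hr => ⟨1, one_mem _, r, hr, by group⟩
  simp only [Nat.testBit_or, Bool.or_eq_true, Nat.testBit_two_pow, decide_eq_true_iff] at hr
  rcases hr with ((rfl | rfl) | rfl) | rfl <;> exact hroot _ (by simp [rootMasks])

theorem zMask_ok : sameOn (appM zMask) (fun b => 4 * (b / 4) + (b + 2) % 4) = true := by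
  decide +kernel

theorem el_zMask : el zMask = zEl := eq_of_sameOn (moved_el _) moved_zEl (of_sameOn zMask_ok)

theorem zEl_mem : zEl ∈ G 0 := el_zMask ▸ el_mem _

theorem zEl_sq : zEl * zEl = 1 :=
  eq_of_sameOn (f := fun b => 4 * (b / 4) + (b + 4) % 4) (f' := fun b => b)
    (fun n => by simp only [moved_mul, moved_zEl]; omega) (fun n => by rw [moved_one]) (by decide)

theorem zEl_ne : zEl ≠ 1 := by
  intro h
  have := congrArg (fun g : fourRu => (moved g (baseV 0)).val) h
  simp only [moved_zEl, moved_one] at this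
  exact absurd this (by decide)

/-- The first representative. -/
def repA : fourRu := el witA.1

/-- The second representative. -/
def repB : fourRu := el witB.1

theorem inv_cases {x : fourRu} (hx : x ∈ G 0) (h : x * x = 1) :
    x = 1 ∨ x = zEl ∨ ∃ g ∈ G 0, g * x * g⁻¹ = repA ∨ g * x * g⁻¹ = repB := by
  obtain ⟨g, hg, m, hm, e⟩ := conj_into hx (k := 1) (by rw [pow_one, pow_two, h])
  have hm2 : el m * el m = 1 := by
    rw [← e, show g * x * g⁻¹ * (g * x * g⁻¹) = g * (x * x) * g⁻¹ by group, h]; group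
  obtain ⟨t, ht, r, hr, e'⟩ := good_of_invSet (el_sq hm hm2)
  rw [← e, show t * (g * x * g⁻¹) * t⁻¹ = (t * g) * x * (t * g)⁻¹ by group] at e'
  simp only [rootMasks, List.mem_cons, List.not_mem_nil, or_false] at hr
  rcases hr with rfl | rfl | rfl | rfl
  · rw [el_zero, conj_eq_one_iff] at e'
    exact Or.inl e'
  · rw [el_zMask, mul_inv_eq_iff_eq_mul, ← zEl_comm] at e'
    exact Or.inr (Or.inl (mul_left_cancel e'))
  · exact Or.inr (Or.inr ⟨t * g, mul_mem ht hg, Or.inl e'⟩)
  · exact Or.inr (Or.inr ⟨t * g, mul_mem ht hg, Or.inr e'⟩)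

theorem no_fourth_root {c : fourRu} (hc : c ∈ G 0) : c ^ 4 ≠ zEl := by
  intro h
  obtain ⟨g, hg, m, hm, e⟩ := conj_into hc (k := 3) (by
    rw [show (2 : ℕ) ^ 3 = 4 + 4 by norm_num, pow_add, h, zEl_sq])
  refine el_fourth hm ?_
  rw [← e, conj_pow, h, mul_inv_eq_iff_eq_mul, zEl_comm]

/-- The checks of a witness. -/
def witOK (t : ℕ × ℕ × ℕ × ℕ) : Bool :=
  forceN t.1 fun a => forceN t.2.1 fun w => forceN t.2.2.1 fun c => forceN t.2.2.2 fun d =>
    sameOn (fun b => forceN (appM a b) fun y => appM w y)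
      (fun b => forceN (appM w b) fun y => appM a y) &&
    (sameOn (fun b => forceN (appM a b) fun y => appM c y)
      (fun b => forceN (appM c b) fun y => appM a y) &&
    (sameOn (fun b => forceN (appM a b) fun y => appM d y)
      (fun b => forceN (appM d b) fun y => appM a y) &&
    (sameOn (fun b => forceN (appM w b) fun y => forceN (appM w y) fun u =>
        forceN (appM w u) fun v => appM w v) (appM a) &&
    sameOn (fun b => forceN (appM c b) fun y => forceN (appM d y) fun u =>
        forceN (appM w u) fun v => appM w v)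
      (fun b => forceN (appM d b) fun y => appM c y))))

theorem witOK_true : witOK witA = true ∧ witOK witB = true := by
  constructor <;> decide +kernel

theorem witness {a : fourRu} (ha : a = repA ∨ a = repB) : ∃ w ∈ G 0, ∃ c ∈ G 0, ∃ d ∈ G 0,
    w * a = a * w ∧ c * a = a * c ∧ d * a = a * d ∧ w ^ 4 = a ∧ w * w * (d * c) = c * d := by
  have key : ∀ t, witOK t = true → ∃ w ∈ G 0, ∃ c ∈ G 0, ∃ d ∈ G 0,
      w * el t.1 = el t.1 * w ∧ c * el t.1 = el t.1 * c ∧ d * el t.1 = el t.1 * d ∧
        w ^ 4 = el t.1 ∧ w * w * (d * c) = c * d := by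
    intro t h
    simp only [witOK, forceN_eq, Bool.and_eq_true] at h
    obtain ⟨h1, h2, h3, h4, h5⟩ := h
    refine ⟨el t.2.1, el_mem _, el t.2.2.1, el_mem _, el t.2.2.2, el_mem _,
      eq_of_sameOn ?_ ?_ (of_sameOn h1), eq_of_sameOn ?_ ?_ (of_sameOn h2),
      eq_of_sameOn ?_ ?_ (of_sameOn h3), ?_, eq_of_sameOn ?_ ?_ (of_sameOn h5)⟩
    all_goals first
      | (intro n; simp only [moved_mul, moved_el]; done)
      | (refine eq_of_sameOn ?_ (moved_el _) (of_sameOn h4); intro n
         simp only [pow_succ, pow_zero, one_mul, moved_mul, moved_el])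
  rcases ha with rfl | rfl
  exacts [key _ witOK_true.1, key _ witOK_true.2]

end CfsgLib.StdRu
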