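import Mathlib
import Cfsg.Prelude.Def_CaseTheorems
import Cfsg.Prelude.Def_Local
import Cfsg.Prelude.Def_IsolatedElements

/-!
A standard subgroup which is a double cover with inner automorphisms only, no fourth root of the
central involution, and a commutator witness over every other involution has isolated centre.
-/

set_option autoImplicit false

open scoped Pointwise commutatorElement

namespace CfsgLib.StdRu

/-- The facts needed on the cover. -/
structure CoverFacts {M : Type*} [Group M] (z : M) : Prop where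
  sq : z * z = 1
  ne : z ≠ 1
  mem_center : z ∈ Subgroup.center M
  center : ∀ c ∈ Subgroup.center M, c = 1 ∨ c = z
  inn : ∀ φ : MulAut M, ∃ c, ∀ x, φ x = c * x * c⁻¹
  no4 : ∀ c : M, c ^ 4 ≠ z
  wit : ∀ x : M, x * x = 1 → x ≠ 1 → x ≠ z → ∃ w c d : M,
    w * x = x * w ∧ c * x = x * c ∧ d * x = x * d ∧ w ^ 4 = x ∧ w * w * (d * c) = c * d

variable {G : Type*} [Group G]

/-- The hypotheses on the embedding. -/
structure Setup {M : Type*} [Group M] (A : Subgroup G) (ι : M →* G) (z : M) : Prop where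
  facts : CoverFacts z
  inj : Function.Injective ι
  range : ι.range = A
  tight : Cfsg.IsTightlyEmbedded (Subgroup.centralizer (A : Set G))
  norm : Subgroup.normalizer (A : Set G) =
    Subgroup.normalizer (Subgroup.centralizer (A : Set G) : Set G)
  cyc : ∀ R : Sylow 2 ↥(Subgroup.centralizer (A : Set G)),
    IsCyclic ↥(R : Subgroup ↥(Subgroup.centralizer (A : Set G)))

/-- In a group with cyclic Sylow 2-subgroups a central involution is outside the derived group. -/
theorem not_mem_commutator {K : Type*} [Group K] [Finite K] (hc : ∀ P : Sylow 2 K, IsCyclic P)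
    {t : K} (ht : t ≠ 1) (h2 : t * t = 1) (hcen : t ∈ Subgroup.center K) : t ∉ commutator K := by
  haveI : Fact (Nat.Prime 2) := ⟨Nat.prime_two⟩
  have hord : orderOf t = 2 := orderOf_eq_prime (by rw [pow_two, h2]) ht
  have hdvd : 2 ∣ Nat.card K := hord ▸ orderOf_dvd_natCard t
  have hmin : (Nat.card K).minFac = 2 := (Nat.minFac_eq_two_iff _).2 hdvd
  let P : Sylow 2 K := default
  have hle := (hc P).normalizer_le_centralizer hmin
  have hpg : IsPGroup 2 (Subgroup.zpowers t) :=
    IsPGroup.iff_card.2 ⟨1, by rw [Nat.card_zpowers, hord, pow_one]⟩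
  obtain ⟨Q, hQ⟩ := hpg.exists_le_sylow
  obtain ⟨g, hg⟩ := MulAction.exists_smul_eq K Q P
  have htP : t ∈ (P : Subgroup K) := by
    rw [← hg, Sylow.coe_subgroup_smul]
    have h := Subgroup.smul_mem_pointwise_smul t (MulAut.conj g) _ (hQ (Subgroup.mem_zpowers t))
    rwa [show MulAut.conj g • t = t by
      show g * t * g⁻¹ = t
      rw [(Subgroup.mem_center_iff.1 hcen g), mul_inv_cancel_right]] at h
  intro hmem
  have hker : commutator K ≤ (MonoidHom.transferSylow P hle).ker := by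
    rw [commutator_def, Subgroup.commutator_le]
    intro a _ b _
    rw [MonoidHom.mem_ker, map_commutatorElement]
    haveI := (hc P).isMulCommutative
    exact commutatorElement_eq_one_iff_mul_comm.2 (mul_comm' _ _)
  have hinj : Function.Injective ((MonoidHom.transferSylow P hle).domRestrict (P : Subgroup K)) :=
    ((MonoidHom.transferSylow_domRestrict_eq_pow P hle).symm ▸
        (P.2.powEquiv' P.not_dvd_index).bijective :
      Function.Bijective ((MonoidHom.transferSylow P hle).domRestrict (P : Subgroup K))).1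
  have h1 : (⟨t, htP⟩ : (P : Subgroup K)) = 1 :=
    hinj (by rw [map_one]; exact hker hmem)
  exact ht (congrArg Subtype.val h1)

namespace Setup

variable [Finite G] {M : Type*} [Group M] {A : Subgroup G} {ι : M →* G} {z : M} (h : Setup A ι z)
include h

theorem mem_A (x : M) : ι x ∈ A := h.range ▸ ⟨x, rfl⟩

theorem commute_K {k : G} (hk : k ∈ Subgroup.centralizer (A : Set G)) (x : M) :
    k * ι x = ι x * k := (hk (ι x) (h.mem_A x)).symm

theorem z_mem_K : ι z ∈ Subgroup.centralizer (A : Set G) := by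
  intro a ha
  rw [SetLike.mem_coe, ← h.range] at ha
  obtain ⟨x, rfl⟩ := ha
  rw [← map_mul, ← map_mul, Subgroup.mem_center_iff.1 h.facts.mem_center x]

theorem z_sq : ι z * ι z = 1 := by rw [← map_mul, h.facts.sq, map_one]

theorem z_ne : ι z ≠ 1 := fun e => h.facts.ne (h.inj (e.trans (map_one ι).symm))

theorem orderOf_z : orderOf (ι z) = 2 := orderOf_eq_prime (by rw [pow_two, h.z_sq]) h.z_ne

theorem inter {x : M} (hx : ι x ∈ Subgroup.centralizer (A : Set G)) : x = 1 ∨ x = z :=
  h.facts.center x (Subgroup.mem_center_iff.2 fun y => h.inj (by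
    rw [map_mul, map_mul]; exact (h.commute_K hx y).symm))

theorem eq_z {k : G} (hk : k ∈ Subgroup.centralizer (A : Set G)) (h2 : k * k = 1) :
    k = 1 ∨ k = ι z := by
  classical
  haveI : Fact (Nat.Prime 2) := ⟨Nat.prime_two⟩
  by_contra hne
  push_neg at hne
  have hcom : k * ι z = ι z * k := h.commute_K hk z
  set K := Subgroup.centralizer (A : Set G)
  let kK : K := ⟨k, hk⟩
  let zK : K := ⟨ι z, h.z_mem_K⟩
  have hz2 : zK * zK = 1 := Subtype.ext h.z_sq
  have hk2 : kK * kK = 1 := Subtype.ext h2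
  have hc : kK * zK = zK * kK := Subtype.ext hcom
  let T : Subgroup K :=
    { carrier := {1, kK, zK, kK * zK}
      one_mem' := Or.inl rfl
      mul_mem' := by
        have e1 : kK * (kK * zK) = zK := by rw [← mul_assoc, hk2, one_mul]
        have e2 : zK * (kK * zK) = kK := by rw [hc, ← mul_assoc, hz2, one_mul]
        have e3 : kK * zK * kK = zK := by rw [hc, mul_assoc, hk2, mul_one]
        have e4 : kK * zK * zK = kK := by rw [mul_assoc, hz2, mul_one]
        have e5 : kK * zK * (kK * zK) = 1 := by rw [← mul_assoc, e3, hz2]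
        have e6 : zK * kK = kK * zK := hc.symm
        intro a b ha hb
        simp only [Set.mem_insert_iff, Set.mem_singleton_iff] at ha hb ⊢
        rcases ha with rfl | rfl | rfl | rfl <;> rcases hb with rfl | rfl | rfl | rfl <;>
          simp [hk2, hz2, e1, e2, e3, e4, e5, e6]
      inv_mem' := by
        intro a ha
        simp only [Set.mem_insert_iff, Set.mem_singleton_iff] at ha ⊢
        have i1 : kK⁻¹ = kK := inv_eq_of_mul_eq_one_right hk2
        have i2 : zK⁻¹ = zK := inv_eq_of_mul_eq_one_right hz2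
        rcases ha with rfl | rfl | rfl | rfl
        · simp
        · simp [i1]
        · simp [i2]
        · right; right; right; rw [mul_inv_rev, i1, i2, hc] }
  have hpg : IsPGroup 2 T := by
    rintro ⟨x, hx⟩
    refine ⟨1, Subtype.ext ?_⟩
    show x ^ 2 ^ 1 = 1
    have hx' : x = 1 ∨ x = kK ∨ x = zK ∨ x = kK * zK := hx
    rw [pow_one, pow_two]
    rcases hx' with rfl | rfl | rfl | rfl
    · exact mul_one 1
    · exact hk2
    · exact hz2
    · rw [← mul_assoc, show kK * zK * kK = zK by rw [hc, mul_assoc, hk2, mul_one], hz2]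
  obtain ⟨R, hR⟩ := hpg.exists_le_sylow
  haveI := h.cyc R
  haveI : Fintype (R : Subgroup K) := Fintype.ofFinite _
  have hkR : kK ∈ (R : Subgroup K) := hR (Or.inr (Or.inl rfl))
  have hzR : zK ∈ (R : Subgroup K) := hR (Or.inr (Or.inr (Or.inl rfl)))
  have hcard := IsCyclic.card_pow_eq_one_le (α := ↥(R : Subgroup K)) (n := 2) (by norm_num)
  have hsub : ({1, ⟨kK, hkR⟩, ⟨zK, hzR⟩} : Finset (R : Subgroup K)) ⊆
      Finset.univ.filter (fun a => a ^ 2 = 1) := by
    intro a ha
    simp only [Finset.mem_insert, Finset.mem_singleton] at ha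
    rw [Finset.mem_filter]
    refine ⟨Finset.mem_univ _, ?_⟩
    rcases ha with rfl | rfl | rfl
    · exact one_pow _
    · exact Subtype.ext (by rw [SubmonoidClass.coe_pow, pow_two]; exact hk2)
    · exact Subtype.ext (by rw [SubmonoidClass.coe_pow, pow_two]; exact hz2)
  have h3 : ({1, ⟨kK, hkR⟩, ⟨zK, hzR⟩} : Finset (R : Subgroup K)).card = 3 := by
    rw [Finset.card_eq_three]
    refine ⟨_, _, _, ?_, ?_, ?_, rfl⟩
    · exact fun e => hne.1 (congrArg (fun r : (R : Subgroup K) => ((r : K) : G)) e).symm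
    · exact fun e => h.z_ne (congrArg (fun r : (R : Subgroup K) => ((r : K) : G)) e).symm
    · exact fun e => hne.2 (congrArg (fun r : (R : Subgroup K) => ((r : K) : G)) e)
  have := Finset.card_le_card hsub
  omega

theorem cent_le {g : G} (hg : g * ι z = ι z * g) : g ∈ Subgroup.normalizer (A : Set G) := by
  rw [h.norm]
  by_contra hgn
  have hodd := h.tight.2 g hgn
  have hz : ι z ∈ Subgroup.centralizer (A : Set G) ⊓
      (Subgroup.centralizer (A : Set G)).map (MulAut.conj g).toMonoidHom := by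
    refine Subgroup.mem_inf.2 ⟨h.z_mem_K, Subgroup.mem_map.2 ⟨_, h.z_mem_K, ?_⟩⟩
    show g * ι z * g⁻¹ = ι z
    rw [hg, mul_inv_cancel_right]
  have h2 : 2 ∣ Nat.card ↥(Subgroup.centralizer (A : Set G) ⊓
      (Subgroup.centralizer (A : Set G)).map (MulAut.conj g).toMonoidHom) := by
    have := orderOf_dvd_natCard (G := ↥(Subgroup.centralizer (A : Set G) ⊓
      (Subgroup.centralizer (A : Set G)).map (MulAut.conj g).toMonoidHom)) ⟨ι z, hz⟩
    rwa [Subgroup.orderOf_mk, h.orderOf_z] at this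
  exact (Nat.not_even_iff_odd.2 hodd) (even_iff_two_dvd.2 h2)

/-- The centraliser of the central involution is the product with the centraliser. -/
theorem decomp {g : G} (hg : g * ι z = ι z * g) :
    ∃ a : M, ∃ k ∈ Subgroup.centralizer (A : Set G), g = ι a * k := by
  have hn := h.cent_le hg
  have hmem : ∀ x, g * ι x * g⁻¹ ∈ ι.range := fun x => by
    rw [h.range]; exact (Subgroup.mem_normalizer_iff.1 hn _).1 (h.mem_A x)
  have hmem' : ∀ x, g⁻¹ * ι x * g ∈ ι.range := fun x => by
    rw [h.range]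
    refine (Subgroup.mem_normalizer_iff.1 hn _).2 ?_
    rw [show g * (g⁻¹ * ι x * g) * g⁻¹ = ι x by group]
    exact h.mem_A x
  choose f hf using hmem
  choose f' hf' using hmem'
  let φ : MulAut M :=
    { toFun := f
      invFun := f'
      left_inv := fun x => h.inj (by rw [hf', hf]; group)
      right_inv := fun x => h.inj (by rw [hf, hf']; group)
      map_mul' := fun x y => h.inj (by rw [map_mul, hf, hf, hf, map_mul]; group) }
  obtain ⟨c, hc⟩ := h.facts.inn φ
  refine ⟨c, (ι c)⁻¹ * g, ?_, by group⟩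
  intro a ha
  rw [SetLike.mem_coe, ← h.range] at ha
  obtain ⟨x, rfl⟩ := ha
  have e := congrArg ι (hc x)
  rw [show ι (φ x) = g * ι x * g⁻¹ from hf x, map_mul, map_mul, map_inv] at e
  calc ι x * ((ι c)⁻¹ * g) = (ι c)⁻¹ * (ι c * ι x * (ι c)⁻¹) * g := by group
    _ = (ι c)⁻¹ * (g * ι x * g⁻¹) * g := by rw [e]
    _ = (ι c)⁻¹ * g * ι x := by group

theorem prod_mul {p q : M} {k l : G} (hk : k ∈ Subgroup.centralizer (A : Set G)) :
    ι p * k * (ι q * l) = ι (p * q) * (k * l) := by
  rw [map_mul]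
  calc ι p * k * (ι q * l) = ι p * (k * ι q) * l := by group
    _ = ι p * (ι q * k) * l := by rw [h.commute_K hk]
    _ = ι p * ι q * (k * l) := by group

/-- The two components of equal products differ by a central element. -/
theorem split {p q : M} {k l : G} (hk : k ∈ Subgroup.centralizer (A : Set G))
    (hl : l ∈ Subgroup.centralizer (A : Set G)) (e : ι p * k = ι q * l) :
    (p = q ∧ k = l) ∨ (p = q * z ∧ l = ι z * k) := by
  have h1 : ι (q⁻¹ * p) = l * k⁻¹ := by
    rw [map_mul, map_inv, inv_mul_eq_iff_eq_mul, ← mul_assoc, ← e, mul_inv_cancel_right]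
  have hm : ι (q⁻¹ * p) ∈ Subgroup.centralizer (A : Set G) := h1 ▸ mul_mem hl (inv_mem hk)
  rcases h.inter hm with h2 | h2
  · exact Or.inl ⟨(inv_mul_eq_one.1 h2).symm,
      (mul_inv_eq_one.1 (h1.symm.trans (by rw [h2, map_one]))).symm⟩
  · refine Or.inr ⟨by rw [← h2, mul_inv_cancel_left], ?_⟩
    rw [← h2, h1, inv_mul_cancel_right]

/-- The central involution is conjugate to no other involution of the subgroup. -/
theorem no_inner {g : G} {x : M} (hx : x * x = 1) (e : g * ι z * g⁻¹ = ι x) : x = z := by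
  by_contra hxz
  have hx1 : x ≠ 1 := fun e1 => h.z_ne (conj_eq_one_iff.1 (e.trans (by rw [e1, map_one])))
  obtain ⟨w, c, d, hw, hc, hd, hw4, hrel⟩ := h.facts.wit x hx hx1 hxz
  let f : M →* G := (MulAut.conj g⁻¹).toMonoidHom.comp ι
  have hfx : f x = ι z := by
    show g⁻¹ * ι x * g⁻¹⁻¹ = ι z
    rw [← e]; group
  have hdec : ∀ y, y * x = x * y → ∃ a, ∃ k ∈ Subgroup.centralizer (A : Set G), f y = ι a * k :=
    fun y hy => h.decomp (by rw [← hfx, ← map_mul, hy, map_mul])
  obtain ⟨b, k, hk, eb⟩ := hdec w hw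
  obtain ⟨p, k1, hk1, ep⟩ := hdec c hc
  obtain ⟨q, k2, hk2, eq⟩ := hdec d hd
  have hb2 : f (w * w) = ι (b * b) * (k * k) := by rw [map_mul, eb, h.prod_mul hk]
  have h4 : f (w ^ 4) = ι (b ^ 4) * k ^ 4 := by
    rw [show w ^ 4 = w * w * (w * w) by simp only [pow_succ, pow_zero, one_mul, mul_assoc], map_mul,
      hb2, h.prod_mul (mul_mem hk hk)]
    simp only [pow_succ, pow_zero, one_mul, mul_assoc]
  have hL : f (w * w * (d * c)) = ι (b * b * (q * p)) * (k * k * (k2 * k1)) := by
    rw [map_mul, map_mul f d c, hb2, eq, ep, h.prod_mul hk2, h.prod_mul (mul_mem hk hk)]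
  have hR : f (c * d) = ι (p * q) * (k1 * k2) := by rw [map_mul, ep, eq, h.prod_mul hk1]
  rw [hrel, hR] at hL
  have hkk : k * k * (k2 * k1) = k1 * k2 ∨ k * k * (k2 * k1) = ι z * (k1 * k2) := by
    rcases h.split (mul_mem hk1 hk2) (mul_mem (mul_mem hk hk) (mul_mem hk2 hk1)) hL with
      ⟨-, e1⟩ | ⟨-, e1⟩
    · exact Or.inl e1.symm
    · exact Or.inr e1
  have hk4 : k ^ 4 ∈ (commutator ↥(Subgroup.centralizer (A : Set G))).map
      (Subgroup.centralizer (A : Set G)).subtype := by
    have hsq : k * k = k1 * k2 * (k1⁻¹ * k2⁻¹) ∨ k * k = ι z * (k1 * k2 * (k1⁻¹ * k2⁻¹)) := by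
      rcases hkk with e1 | e1
      · exact Or.inl (by rw [← e1]; group)
      · exact Or.inr (by rw [← mul_assoc (ι z), ← e1]; group)
    let s : G := k1 * k2 * (k1⁻¹ * k2⁻¹)
    have h44 : k ^ 4 = s * s := by
      have hs : s ∈ Subgroup.centralizer (A : Set G) :=
        mul_mem (mul_mem hk1 hk2) (mul_mem (inv_mem hk1) (inv_mem hk2))
      rw [show k ^ 4 = k * k * (k * k) by simp only [pow_succ, pow_zero, one_mul, mul_assoc]]
      rcases hsq with e1 | e1
      · rw [e1]
      · rw [e1]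
        calc ι z * s * (ι z * s) = ι z * (s * ι z) * s := by group
          _ = ι z * (ι z * s) * s := by rw [h.commute_K hs]
          _ = s * s := by rw [← mul_assoc (ι z), h.z_sq, one_mul]
    refine h44 ▸ mul_mem ?_ ?_ <;>
    exact ⟨⁅(⟨k1, hk1⟩ : Subgroup.centralizer (A : Set G)), ⟨k2, hk2⟩⁆,
      Subgroup.commutator_mem_commutator (Subgroup.mem_top _) (Subgroup.mem_top _),
      by simp [commutatorElement_def, s, mul_assoc]⟩
  have hk4z : k ^ 4 ≠ ι z := by
    intro e1
    rw [e1] at hk4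
    obtain ⟨y, hy, ey⟩ := hk4
    refine not_mem_commutator h.cyc (t := y) (fun e2 => h.z_ne ?_) (Subtype.ext ?_) ?_ hy
    · rw [← ey, e2, map_one]
    · show (y : G) * y = 1
      rw [show (y : G) = ι z from ey, h.z_sq]
    · refine Subgroup.mem_center_iff.2 fun u => Subtype.ext ?_
      show (u : G) * y = y * u
      rw [show (y : G) = ι z from ey, h.commute_K u.2]
  rw [hw4, hfx] at h4
  rcases h.split (p := z) (k := 1) (one_mem _) (pow_mem hk 4) (by rw [mul_one]; exact h4) with
    ⟨e1, -⟩ | ⟨-, e2⟩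
  · exact h.facts.no4 b e1.symm
  · exact hk4z (by rw [e2, mul_one])

/-- The central involution is isolated. -/
theorem eq_of_commute {g : G} (hg : g * ι z * g⁻¹ * ι z = ι z * (g * ι z * g⁻¹)) :
    g * ι z * g⁻¹ = ι z := by
  have key : ∀ g : G, ∀ (a : M) (k : G), k ∈ Subgroup.centralizer (A : Set G) →
      g * ι z * g⁻¹ = ι a * k →
      (a * a = 1 ∧ g * ι z * g⁻¹ = ι z) ∨ (a * a = z ∧ k * k = ι z) := by
    intro g a k hk e
    have hsq : ι (a * a) * (k * k) = ι 1 * 1 := by
      rw [← h.prod_mul hk, ← e, map_one, one_mul,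
        show g * ι z * g⁻¹ * (g * ι z * g⁻¹) = g * (ι z * ι z) * g⁻¹ by group, h.z_sq]
      group
    rcases h.split (mul_mem hk hk) (one_mem _) hsq with ⟨ea, ek⟩ | ⟨ea, ek⟩
    · refine Or.inl ⟨ea, ?_⟩
      rcases h.eq_z hk ek with rfl | rfl
      · rw [mul_one] at e
        rw [e, h.no_inner ea e]
      · rw [← map_mul] at e
        rw [e, h.no_inner (by
          rw [mul_assoc, ← mul_assoc z, ← Subgroup.mem_center_iff.1 h.facts.mem_center a, mul_assoc,
            h.facts.sq, mul_one, ea]) e]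
    · refine Or.inr ⟨by rw [ea, one_mul], ?_⟩
      rw [← mul_one (ι z), ek, ← mul_assoc, h.z_sq, one_mul]
  obtain ⟨a, k, hk, e⟩ := h.decomp hg
  rcases key g a k hk e with ⟨-, h1⟩ | ⟨ha, -⟩
  · exact h1
  exfalso
  have hg' : g⁻¹ * ι z * g⁻¹⁻¹ * ι z = ι z * (g⁻¹ * ι z * g⁻¹⁻¹) := by
    calc g⁻¹ * ι z * g⁻¹⁻¹ * ι z = g⁻¹ * (ι z * (g * ι z * g⁻¹)) * g := by group
      _ = g⁻¹ * (g * ι z * g⁻¹ * ι z) * g := by rw [hg]
      _ = ι z * (g⁻¹ * ι z * g⁻¹⁻¹) := by group
  obtain ⟨p, q, hq, e'⟩ := h.decomp hg'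
  rcases key g⁻¹ p q hq e' with ⟨-, h1⟩ | ⟨hp, -⟩
  · have h2 : g * ι z * g⁻¹ = ι z := by
      calc g * ι z * g⁻¹ = g * (g⁻¹ * ι z * g⁻¹⁻¹) * g⁻¹ := by rw [h1]
        _ = ι z := by group
    rcases h.split (p := a) (q := z) hk (one_mem _) (by rw [← e, h2, mul_one]) with
      ⟨e1, -⟩ | ⟨e1, -⟩
    · rw [e1, h.facts.sq] at ha; exact h.facts.ne ha.symm
    · rw [e1, h.facts.sq, one_mul] at ha; exact h.facts.ne ha.symm
  have hcom : ι p * (g⁻¹ * ι z * g⁻¹⁻¹) = g⁻¹ * ι z * g⁻¹⁻¹ * ι p := by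
    rw [e']
    calc ι p * (ι p * q) = ι p * ι p * q := by group
      _ = ι p * (ι p * q) := by group
      _ = ι p * (q * ι p) := by rw [h.commute_K hq]
      _ = ι p * q * ι p := by group
  obtain ⟨x, y, hy, exy⟩ := h.decomp (g := g * ι p * g⁻¹) (by
    calc g * ι p * g⁻¹ * ι z = g * (ι p * (g⁻¹ * ι z * g⁻¹⁻¹)) * g⁻¹ := by group
      _ = g * (g⁻¹ * ι z * g⁻¹⁻¹ * ι p) * g⁻¹ := by rw [hcom]
      _ = ι z * (g * ι p * g⁻¹) := by group)
  have hxx : ι (x * x) * (y * y) = ι a * k := by
    rw [← h.prod_mul hy, ← exy, ← e,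
      show g * ι p * g⁻¹ * (g * ι p * g⁻¹) = g * (ι p * ι p) * g⁻¹ by group, ← map_mul, hp]
  refine h.facts.no4 x ?_
  have hx4 : x ^ 4 = x * x * (x * x) := by simp only [pow_succ, pow_zero, one_mul, mul_assoc]
  rcases h.split (mul_mem hy hy) hk hxx with ⟨e1, -⟩ | ⟨e1, -⟩
  · rw [hx4, e1, ha]
  · rw [hx4, e1, mul_assoc, ← mul_assoc z, ← Subgroup.mem_center_iff.1 h.facts.mem_center a,
      mul_assoc, h.facts.sq, mul_one, ha]

end Setup

end CfsgLib.StdRu
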