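import Cfsg.Agent.Rudvalis.Multiplier
import Cfsg.Agent.Rudvalis.OutBound
import Cfsg.Agent.SchurMult.Uniqueness
import Cfsg.Agent.StdRu.Facts
import Cfsg.Agent.StdRu.Main

/-!
The double cover of the Rudvalis group: automorphisms and uniqueness.
-/

set_option autoImplicit false
set_option maxRecDepth 100000

open scoped commutatorElement

namespace CfsgLib.StdRu

open CfsgLib.Rudvalis CfsgLib.CosetEnum Cfsg Cfsg.Spor

instance finite_lattice_group : Finite fourRu := Finite.of_injective _ permHom_injective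

/-- The central involution of the cover. -/
noncomputable def zG : G 0 := ⟨zEl, zEl_mem⟩

theorem zG_center : zG ∈ Subgroup.center (G 0) :=
  Subgroup.mem_center_iff.2 fun g => Subtype.ext (zEl_comm g.1)

theorem zG_ne : zG ≠ 1 := fun e => zEl_ne (congrArg Subtype.val e)

theorem zG_sq : zG * zG = 1 := Subtype.ext zEl_sq

theorem center_cover : ∀ c ∈ Subgroup.center (G 0), c = 1 ∨ c = zG := by
  intro c hc
  have hsimple := isSimple
  have hc' : coverMap c = 1 := by
    have hmem : coverMap c ∈ Subgroup.center Spor.Ru := Subgroup.mem_center_iff.2 fun y => by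
      obtain ⟨y, rfl⟩ := coverMap_surjective y
      rw [← map_mul, ← map_mul, Subgroup.mem_center_iff.1 hc y]
    rcases Subgroup.Normal.eq_bot_or_eq_top
      (inferInstance : (Subgroup.center Spor.Ru).Normal) with h | h
    · rwa [h, Subgroup.mem_bot] at hmem
    · exfalso
      have h1 : commutator Spor.Ru = ⊥ := by
        rw [commutator_def, eq_bot_iff, Subgroup.commutator_le]
        intro a _ b _
        rw [Subgroup.mem_bot, commutatorElement_eq_one_iff_mul_comm]
        exact (Subgroup.mem_center_iff.1 (h ▸ Subgroup.mem_top b) a)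
      rw [commutator_Ru] at h1
      exact top_ne_bot h1
  have hzk : zG ∈ coverMap.ker :=
    (QuotientGroup.eq_one_iff zEl).2 (Subgroup.mem_center_iff.2 zEl_comm)
  obtain ⟨u, -, hu⟩ := (Nat.card_eq_two_iff' (1 : coverMap.ker)).1 card_coverMap_ker
  by_cases h1 : c = 1
  · exact Or.inl h1
  · refine Or.inr ?_
    have e1 := hu ⟨c, hc'⟩ fun e => h1 (congrArg Subtype.val e)
    have e2 := hu ⟨zG, hzk⟩ fun e => zG_ne (congrArg Subtype.val e)
    exact congrArg Subtype.val (e1.trans e2.symm)

theorem ker_coverMap_eq : coverMap.ker = Subgroup.center (G 0) := by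
  refine le_antisymm coverMap_ker_le fun c hc => ?_
  rcases center_cover c hc with rfl | rfl
  · exact one_mem _
  · exact (QuotientGroup.eq_one_iff zEl).2 (Subgroup.mem_center_iff.2 zEl_comm)

theorem inn_cover (φ : MulAut (G 0)) : ∃ c : G 0, ∀ x, φ x = c * x * c⁻¹ := by
  let q : G 0 ⧸ Subgroup.center (G 0) ≃* Spor.Ru :=
    (QuotientGroup.quotientMulEquivOfEq ker_coverMap_eq.symm).trans
      (QuotientGroup.quotientKerEquivOfSurjective coverMap coverMap_surjective)
  have hq : ∀ x, q (QuotientGroup.mk x) = coverMap x := fun _ => rfl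
  let ψ : MulAut Spor.Ru := (q.symm.trans (QuotientGroup.congr (Subgroup.center (G 0))
    (Subgroup.center (G 0)) φ (Subgroup.characteristic_iff_map_eq.1 inferInstance φ))).trans q
  obtain ⟨d, hd⟩ : ψ ∈ Cfsg.Inn Spor.Ru := by
    have hsub : Subsingleton (Cfsg.Out Spor.Ru) := (Nat.card_eq_one_iff_unique.1 card_Out).1
    exact (QuotientGroup.eq_one_iff ψ).1 (Subsingleton.elim _ _)
  obtain ⟨c, rfl⟩ := coverMap_surjective d
  have hdd : ∀ x, ∃ u ∈ Subgroup.center (G 0), φ x = c * x * c⁻¹ * u := by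
    intro x
    have h1 : coverMap (φ x) = coverMap (c * x * c⁻¹) := by
      have h2 : ψ (coverMap x) = coverMap (φ x) := by
        rw [← hq x]
        show q (QuotientGroup.congr (Subgroup.center (G 0)) (Subgroup.center (G 0)) φ
          (Subgroup.characteristic_iff_map_eq.1 inferInstance φ) (q.symm (q (QuotientGroup.mk x)))) = _
        rw [MulEquiv.symm_apply_apply]
        rfl
      rw [← h2, ← hd, map_mul, map_mul, map_inv]
      rfl
    refine ⟨(c * x * c⁻¹)⁻¹ * φ x, ?_, by group⟩
    rw [← ker_coverMap_eq, MonoidHom.mem_ker, map_mul, map_inv, h1, inv_mul_cancel]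
  refine ⟨c, fun x => ?_⟩
  let F : Subgroup (G 0) :=
    { carrier := {y | φ y = c * y * c⁻¹}
      one_mem' := by simp
      mul_mem' := fun {a b} ha hb => by
        simp only [Set.mem_ofPred_eq] at ha hb ⊢; rw [map_mul, ha, hb]; group
      inv_mem' := fun {a} ha => by
        simp only [Set.mem_ofPred_eq] at ha ⊢; rw [map_inv, ha]; group }
  have htop : (⊤ : Subgroup (G 0)) ≤ F := by
    rw [← commutator_cover, commutator_def, Subgroup.commutator_le]
    intro a _ b _
    obtain ⟨u, hu, ea⟩ := hdd a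
    obtain ⟨v, hv, eb⟩ := hdd b
    have cu : ∀ y, u * y = y * u := fun y => (Subgroup.mem_center_iff.1 hu y).symm
    have cv : ∀ y, v * y = y * v := fun y => (Subgroup.mem_center_iff.1 hv y).symm
    show φ ⁅a, b⁆ = c * ⁅a, b⁆ * c⁻¹
    rw [map_commutatorElement, ea, eb]
    have key : ∀ p q : G 0, ⁅p * u, q * v⁆ = ⁅p, q⁆ := fun p q => by
      simp only [commutatorElement_def, mul_inv_rev]
      calc p * u * (q * v) * (u⁻¹ * p⁻¹) * (v⁻¹ * q⁻¹)
          = p * (u * q) * (v * (u⁻¹ * p⁻¹)) * (v⁻¹ * q⁻¹) := by group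
        _ = p * (q * u) * ((u⁻¹ * p⁻¹) * v) * (v⁻¹ * q⁻¹) := by rw [cu, cv]
        _ = p * q * p⁻¹ * q⁻¹ := by group
    rw [key]
    simp only [commutatorElement_def]
    group
  exact htop (Subgroup.mem_top x)

theorem cover_facts : CoverFacts zG where
  sq := zG_sq
  ne := zG_ne
  mem_center := zG_center
  center := center_cover
  inn := inn_cover
  no4 c h := no_fourth_root c.2 (by have := congrArg Subtype.val h; simpa [zG] using this)
  wit x hx h1 hz := by
    have hxv : x.1 * x.1 = 1 := congrArg Subtype.val hx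
    rcases inv_cases x.2 hxv with h | h | ⟨g, hg, h⟩
    · exact absurd (Subtype.ext h) h1
    · exact absurd (Subtype.ext h) hz
    · obtain ⟨w, hw, c, hc, d, hd, e1, e2, e3, e4, e5⟩ := witness (a := g * x.1 * g⁻¹) h
      refine ⟨⟨g, hg⟩⁻¹ * ⟨w, hw⟩ * ⟨g, hg⟩, ⟨g, hg⟩⁻¹ * ⟨c, hc⟩ * ⟨g, hg⟩,
        ⟨g, hg⟩⁻¹ * ⟨d, hd⟩ * ⟨g, hg⟩, ?_, ?_, ?_, ?_, ?_⟩ <;> apply Subtype.ext <;>
        simp only [Subgroup.coe_mul, Subgroup.coe_inv, SubmonoidClass.coe_pow]
      · calc g⁻¹ * w * g * x.1 = g⁻¹ * (w * (g * x.1 * g⁻¹)) * g := by group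
          _ = g⁻¹ * (g * x.1 * g⁻¹ * w) * g := by rw [e1]
          _ = x.1 * (g⁻¹ * w * g) := by group
      · calc g⁻¹ * c * g * x.1 = g⁻¹ * (c * (g * x.1 * g⁻¹)) * g := by group
          _ = g⁻¹ * (g * x.1 * g⁻¹ * c) * g := by rw [e2]
          _ = x.1 * (g⁻¹ * c * g) := by group
      · calc g⁻¹ * d * g * x.1 = g⁻¹ * (d * (g * x.1 * g⁻¹)) * g := by group
          _ = g⁻¹ * (g * x.1 * g⁻¹ * d) * g := by rw [e3]
          _ = x.1 * (g⁻¹ * d * g) := by group
      · have := conj_pow (i := 4) (a := g⁻¹) (b := w)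
        rw [inv_inv] at this
        rw [this, e4]; group
      · calc g⁻¹ * w * g * (g⁻¹ * w * g) * (g⁻¹ * d * g * (g⁻¹ * c * g))
            = g⁻¹ * (w * w * (d * c)) * g := by group
          _ = g⁻¹ * (c * d) * g := by rw [e5]
          _ = g⁻¹ * c * g * (g⁻¹ * d * g) := by group

/-- A perfect double cover of the group is isomorphic to this one. -/
theorem nonempty_equiv {B : Type} [Group B] [Finite B] (hperf : commutator B = ⊤)
    (hZ : Nat.card (Subgroup.center B) = 2) (e : B ⧸ Subgroup.center B ≃* Spor.Ru) :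
    Nonempty (G 0 ≃* B) := by
  let σ : B →* Spor.Ru := e.toMonoidHom.comp (QuotientGroup.mk' (Subgroup.center B))
  have hσker : σ.ker = Subgroup.center B := by
    ext b
    rw [MonoidHom.mem_ker, MonoidHom.comp_apply]
    exact (map_eq_one_iff _ e.injective).trans (QuotientGroup.eq_one_iff b)
  have hσ : Cfsg.IsStemExtension σ :=
    ⟨e.surjective.comp (QuotientGroup.mk'_surjective _), hσker.le, by rw [hperf]; exact le_top⟩
  have hM : Cfsg.IsStemExtension coverMap :=
    ⟨coverMap_surjective, coverMap_ker_le, by rw [commutator_cover]; exact le_top⟩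
  haveI : Finite Spor.Ru := Finite.of_surjective _ coverMap_surjective
  obtain ⟨eA⟩ := CfsgLib.SchurMult.nonempty_mulEquiv_mult multiplier_Ru
  have hMult : Nat.card (CfsgLib.SchurMult.Mult Spor.Ru) = 2 := by
    rw [← Nat.card_congr eA.toEquiv]; simp
  have hab : Nat.card (Abelianization Spor.Ru) = 1 := by
    rw [← Subgroup.index_eq_one.2 commutator_Ru]
    rfl
  obtain ⟨f, -⟩ := CfsgLib.SchurMult.cover_unique_of_coprime hM hσ
    (by rw [card_coverMap_ker, hMult]) (by rw [hσker, hZ, hMult])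
    (by rw [hab]; exact Nat.coprime_one_left _)
  exact ⟨f⟩

end CfsgLib.StdRu
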