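import Cfsg.Agent.StdRu.Sylow

/-!
The search through the elements of the Sylow 2-subgroup.
-/

set_option autoImplicit false
set_option maxRecDepth 100000

namespace CfsgLib.StdRu

open CfsgLib.Rudvalis CfsgLib.CosetEnum Cfsg Cfsg.Spor

/-- The images of the base points under the central involution. -/
def zPts : List ℕ := [2, 82, 179, 84, 3504]

/-- The checks at one element, given by the images of the base points and its mask. -/
def leafOK (p : List ℕ) (m : ℕ) : Bool :=
  (!(agree (fun x => x) p basePts) || Nat.beq m 0) &&
  ((!(agree (appM m) p basePts) || Nat.beq ((invSet >>> m) % 2) 1) &&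
  !(agree (fun x => forceN (appM m x) fun y => forceN (appM m y) fun u => appM m u) p zPts))

/-- Pass the images of a list under a table to a continuation, computed. -/
def forceMap {α : Type} (T : ℕ) : List ℕ → (List ℕ → α) → α
  | [], k => k []
  | x :: xs, k => forceN (imgT T x) fun y => forceMap T xs fun ys => k (y :: ys)

theorem forceMap_eq {α : Type} (T : ℕ) : ∀ (l : List ℕ) (k : List ℕ → α),
    forceMap T l k = k (l.map (imgT T))
  | [], _ => rfl
  | x :: xs, k => by rw [forceMap, forceN_eq, forceMap_eq T xs, List.map_cons]

/-- The search below one node. -/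
def scan : ℕ → List ℕ → ℕ → Bool
  | 0, p, m => leafOK p m
  | k + 1, p, m => scan k p m &&
      forceMap (stab k) p fun p' => forceN (2 ^ k + m) fun m' => scan k p' m'

theorem scan_sound : ∀ (k m : ℕ) (p : List ℕ), k ≤ 15 → m % 2 ^ k = 0 →
    p = basePts.map (appM m) → scan k p m = true →
    ∀ r < 2 ^ k, leafOK (basePts.map (appM (r + m))) (r + m) = true
  | 0, m, p, _, _, hp, h, r, hr => by
    obtain rfl : r = 0 := by simpa using hr
    rw [Nat.zero_add, ← hp]
    exact h
  | k + 1, m, p, hk, hm, hp, h, r, hr => by
    simp only [scan, forceMap_eq, forceN_eq, Bool.and_eq_true] at h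
    by_cases hrk : r < 2 ^ k
    · exact scan_sound k m p (by omega) (mod_two_pow_of_succ hm) hp h.1 r hrk
    · have hm' : (2 ^ k + m) % 2 ^ k = 0 := by
        rw [Nat.add_mod_left]; exact mod_two_pow_of_succ hm
      have hb : ∀ b ∈ basePts, b < NV := by decide +kernel
      have hp' : p.map (imgT (stab k)) = basePts.map (appM (2 ^ k + m)) := by
        rw [hp, List.map_map]
        refine List.map_congr_left fun b hbm => ?_
        have e := congrArg (fun g : fourRu => (moved g ⟨b, hb b hbm⟩).val)
          (el_add (i := k) (by omega) hm)
        simp only [moved_el, moved_mul, moved_sgen] at e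
        exact e.symm
      have := scan_sound k (2 ^ k + m) _ (by omega) hm' hp' h.2 (r - 2 ^ k) (by
        rw [pow_succ] at hr; omega)
      rwa [show r - 2 ^ k + (2 ^ k + m) = r + m by omega] at this

/-- One part of the search. -/
def part (t : ℕ) : Bool := forceN (2 ^ 12 * t) fun m => scan 12 (basePts.map (appM m)) m

end CfsgLib.StdRu
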