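import Cfsg.Agent.StdRu.Table
import Cfsg.Agent.StdRu.Data

/-!
A Sylow 2-subgroup of the double cover of the Rudvalis group.
-/

set_option autoImplicit false
set_option maxRecDepth 100000

namespace CfsgLib.StdRu

open CfsgLib.Rudvalis CfsgLib.CosetEnum Cfsg Cfsg.Spor

/-- Compare the images of the listed points under a map with a second list. -/
def agree (f : ℕ → ℕ) : List ℕ → List ℕ → Bool
  | x :: xs, y :: ys => Nat.beq (f x) y && agree f xs ys
  | [], [] => true
  | _, _ => false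

theorem agree_iff (f : ℕ → ℕ) : ∀ l l' : List ℕ, agree f l l' = true ↔ l.map f = l'
  | [], [] => by simp [agree]
  | [], _ :: _ => by simp [agree]
  | _ :: _, [] => by simp [agree]
  | x :: xs, y :: ys => by simp [agree, agree_iff f xs ys]

/-- Two maps agree on the base points. -/
def sameOn (f h : ℕ → ℕ) : Bool := basePts.all fun b => Nat.beq (f b) (h b)

theorem eq_of_sameOn {g h : fourRu} {f f' : ℕ → ℕ} (hg : ∀ n : V, (moved g n).val = f n.val)
    (hh : ∀ n : V, (moved h n).val = f' n.val) (e : ∀ b ∈ basePts, f b = f' b) : g = h := by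
  refine (inv_mul_eq_one.1 (eq_one_of_fixed (g := h⁻¹ * g) fun b hb hlt => ?_)).symm
  have h1 : moved g ⟨b, hlt⟩ = moved h ⟨b, hlt⟩ := Fin.ext (by rw [hg, hh]; exact e b hb)
  rw [moved_mul, h1, ← moved_mul, inv_mul_cancel, moved_one]

theorem of_sameOn {f f' : ℕ → ℕ} (h : sameOn f f' = true) : ∀ b ∈ basePts, f b = f' b := by
  simp only [sameOn, List.all_eq_true, Nat.beq_eq] at h
  exact h

/-- The checks of the relations. -/
def relOK : Bool :=
  (List.range 15).all fun i =>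
    Nat.beq (sqMasks.getD i 0 % 2 ^ (i + 1)) 0 &&
    sameOn (fun b => forceN (imgT (stab i) b) fun y => imgT (stab i) y) (appM (sqMasks.getD i 0)) &&
    (List.range 15).all fun j => Nat.ble j i ||
      (forceN ((conjMasks.getD i []).getD (j - (i + 1)) 0) fun q =>
        Nat.beq (q % 2 ^ (i + 1)) 0 &&
        sameOn (fun b => forceN (imgT (stab j) b) fun y => imgT (stab i) y)
          (fun b => forceN (imgT (stab i) b) fun y => appM q y))

theorem relOK_true : relOK = true := by decide +kernel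

theorem sq_rel {i : ℕ} (hi : i < 15) :
    sgen i * sgen i = el (sqMasks.getD i 0) ∧ sqMasks.getD i 0 % 2 ^ (i + 1) = 0 := by
  have h := relOK_true
  simp only [relOK, List.all_eq_true, List.mem_range, Bool.and_eq_true, Nat.beq_eq] at h
  obtain ⟨⟨hq, hs⟩, -⟩ := h i hi
  refine ⟨eq_of_sameOn (fun n => ?_) (moved_el _) (of_sameOn hs), hq⟩
  simp only [forceN_eq, moved_mul, moved_sgen]

theorem conj_rel {i j : ℕ} (hij : i < j) (hj : j < 15) :
    ∃ q, sgen i * sgen j = el q * sgen i ∧ q % 2 ^ (i + 1) = 0 := by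
  have h := relOK_true
  simp only [relOK, List.all_eq_true, List.mem_range, Bool.and_eq_true, Bool.or_eq_true,
    Nat.ble_eq, forceN_eq, Nat.beq_eq] at h
  rcases (h i (by omega)).2 j hj with hle | ⟨hq, hs⟩
  · omega
  · refine ⟨_, eq_of_sameOn (fun n => ?_) (fun n => ?_) (of_sameOn hs), hq⟩
    · simp only [moved_mul, moved_sgen]
    · simp only [moved_mul, moved_sgen, moved_el]

theorem low_bit {q i b : ℕ} (hq : q % 2 ^ i = 0) (hb : b < i) : (q >>> b) % 2 = 0 := by
  have h := Nat.testBit_mod_two_pow q i b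
  simp only [hq, Nat.zero_testBit, hb, decide_true, Bool.true_and] at h
  rw [Nat.testBit_eq_decide_div_mod_eq, eq_comm, decide_eq_false_iff_not] at h
  rw [Nat.shiftRight_eq_div_pow]
  omega

/-- The group generated by the generators from a position on. -/
def H (i : ℕ) : Subgroup fourRu := Subgroup.closure (sgen '' {j | i ≤ j ∧ j < 15})

theorem elFrom_mem_H {i q : ℕ} (hq : ∀ b < i, (q >>> b) % 2 = 0) :
    ∀ k j, j + k = 15 → elFrom k j q ∈ H i
  | 0, _, _ => one_mem _
  | k + 1, j, h => by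
    rw [elFrom]
    have hrec := elFrom_mem_H hq k (j + 1) (by omega)
    split
    · exact hrec
    · refine mul_mem (Subgroup.subset_closure ⟨j, ⟨?_, by omega⟩, rfl⟩) hrec
      rename_i hne
      by_contra hlt
      exact hne (by rw [hq j (by omega)]; rfl)

theorem el_mem_H {i q : ℕ} (hq : q % 2 ^ i = 0) : el q ∈ H i :=
  elFrom_mem_H (fun _ hb => low_bit hq hb) 15 0 rfl

theorem elFrom_congr : ∀ (k i m m' : ℕ), (∀ b, i ≤ b → b < i + k → (m >>> b) % 2 = (m' >>> b) % 2) →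
    elFrom k i m = elFrom k i m'
  | 0, _, _, _, _ => rfl
  | k + 1, i, m, m', h => by
    rw [elFrom, elFrom, elFrom_congr k (i + 1) m m' (fun b h1 h2 => h b (by omega) (by omega)),
      h i le_rfl (by omega)]

theorem mod_two_pow_of_succ {m i : ℕ} (h : m % 2 ^ (i + 1) = 0) : m % 2 ^ i = 0 :=
  Nat.mod_eq_zero_of_dvd ((Nat.pow_dvd_pow 2 (Nat.le_succ i)).trans (Nat.dvd_of_mod_eq_zero h))

theorem el_drop {m : ℕ} : ∀ i ≤ 15, m % 2 ^ i = 0 → el m = elFrom (15 - i) i m
  | 0, _, _ => rfl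
  | i + 1, hi, hm => by
    have h0 : m % 2 ^ i = 0 :=
      mod_two_pow_of_succ hm
    rw [el_drop i (by omega) h0, show 15 - i = (15 - (i + 1)) + 1 by omega, elFrom,
      if_pos (by rw [low_bit hm (Nat.lt_succ_self i)]; rfl)]

theorem el_zero : el 0 = 1 := by
  rw [el_drop 15 le_rfl (by norm_num)]
  rfl

theorem el_add {i m : ℕ} (hi : i < 15) (hm : m % 2 ^ (i + 1) = 0) :
    el (2 ^ i + m) = sgen i * el m := by
  obtain ⟨t, rfl⟩ : 2 ^ (i + 1) ∣ m := Nat.dvd_of_mod_eq_zero hm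
  have h1 : (2 ^ i + 2 ^ (i + 1) * t) % 2 ^ i = 0 := by
    rw [pow_succ, mul_assoc, Nat.add_mul_mod_self_left, Nat.mod_self]
  have hdiv : (2 ^ i + 2 ^ (i + 1) * t) >>> i = 1 + 2 * t := by
    rw [Nat.shiftRight_eq_div_pow, pow_succ, mul_assoc, Nat.add_mul_div_left _ _ (by positivity),
      Nat.div_self (by positivity)]
  rw [el_drop i hi.le h1, show 15 - i = (15 - (i + 1)) + 1 by omega, elFrom,
    if_neg (by rw [hdiv]; simp), el_drop (i + 1) hi hm]
  congr 1
  refine elFrom_congr _ _ _ _ fun b hb _ => ?_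
  obtain ⟨u, rfl⟩ := Nat.exists_eq_add_of_le hb
  rw [Nat.shiftRight_eq_div_pow, Nat.shiftRight_eq_div_pow, pow_add 2 (i + 1) u, ← Nat.div_div_eq_div_mul,
    ← Nat.div_div_eq_div_mul]
  congr 2
  rw [Nat.add_mul_div_left _ _ (by positivity), Nat.mul_div_cancel_left _ (by positivity),
    Nat.div_eq_of_lt (Nat.pow_lt_pow_right (by norm_num) (Nat.lt_succ_self i)), zero_add]

theorem H_succ_le (i : ℕ) : H (i + 1) ≤ H i :=
  Subgroup.closure_mono (Set.image_mono fun _ hj => ⟨Nat.le_of_succ_le hj.1, hj.2⟩)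

theorem conj_mem_H {i : ℕ} (hi : i < 15) {x : fourRu} (hx : x ∈ H (i + 1)) :
    sgen i * x * (sgen i)⁻¹ ∈ H (i + 1) := by
  have hle : (H (i + 1)).map (MulAut.conj (sgen i)).toMonoidHom ≤ H (i + 1) := by
    rw [H, MonoidHom.map_closure, Subgroup.closure_le]
    rintro _ ⟨_, ⟨j, ⟨hj1, hj2⟩, rfl⟩, rfl⟩
    obtain ⟨q, e, hq⟩ := conj_rel (i := i) (by omega) hj2
    show sgen i * sgen j * (sgen i)⁻¹ ∈ _
    rw [e, mul_inv_cancel_right]
    exact el_mem_H hq
  exact hle ⟨x, hx, rfl⟩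

theorem H_cases {i : ℕ} (hi : i < 15) {x : fourRu} (hx : x ∈ H i) :
    x ∈ H (i + 1) ∨ ∃ h ∈ H (i + 1), x = sgen i * h := by
  have hs : sgen i * sgen i ∈ H (i + 1) := by
    rw [(sq_rel hi).1]; exact el_mem_H (sq_rel hi).2
  have back : ∀ h ∈ H (i + 1), (sgen i)⁻¹ * h * sgen i ∈ H (i + 1) := by
    intro h hh
    rw [show (sgen i)⁻¹ * h * sgen i =
      (sgen i * sgen i)⁻¹ * (sgen i * h * (sgen i)⁻¹) * (sgen i * sgen i) by group]
    exact mul_mem (mul_mem (inv_mem hs) (conj_mem_H hi hh)) hs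
  unfold H at hx
  induction hx using Subgroup.closure_induction with
  | mem y hy =>
    obtain ⟨j, ⟨hj1, hj2⟩, rfl⟩ := hy
    rcases eq_or_lt_of_le hj1 with rfl | hlt
    · exact Or.inr ⟨1, one_mem _, (mul_one _).symm⟩
    · exact Or.inl (Subgroup.subset_closure ⟨j, ⟨hlt, hj2⟩, rfl⟩)
  | one => exact Or.inl (one_mem _)
  | mul a b _ _ iha ihb =>
    rcases iha with ha | ⟨a, ha, rfl⟩ <;> rcases ihb with hb | ⟨b, hb, rfl⟩
    · exact Or.inl (mul_mem ha hb)
    · exact Or.inr ⟨_, mul_mem (back _ ha) hb, by group⟩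
    · exact Or.inr ⟨a * b, mul_mem ha hb, by group⟩
    · refine Or.inl ?_
      rw [show sgen i * a * (sgen i * b) =
        (sgen i * a * (sgen i)⁻¹) * (sgen i * sgen i) * b by group]
      exact mul_mem (mul_mem (conj_mem_H hi ha) hs) hb
  | inv a _ iha =>
    rcases iha with ha | ⟨a, ha, rfl⟩
    · exact Or.inl (inv_mem ha)
    · refine Or.inr ⟨(sgen i)⁻¹ * a⁻¹ * sgen i * (sgen i * sgen i)⁻¹,
        mul_mem (back _ (inv_mem ha)) (inv_mem hs), by group⟩

theorem exists_el : ∀ k i, i + k = 15 → ∀ x ∈ H i, ∃ m < 2 ^ 15, m % 2 ^ i = 0 ∧ x = el m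
  | 0, i, h, x, hx => by
    refine ⟨0, by norm_num, Nat.zero_mod _, ?_⟩
    have : H i = ⊥ := by
      rw [H, Subgroup.closure_eq_bot_iff]
      rintro _ ⟨j, ⟨hj1, hj2⟩, rfl⟩
      omega
    rw [this, Subgroup.mem_bot] at hx
    rw [hx, el_zero]
  | k + 1, i, h, x, hx => by
    rcases H_cases (by omega) hx with hx' | ⟨y, hy, rfl⟩
    · obtain ⟨m, hm, hm0, rfl⟩ := exists_el k (i + 1) (by omega) x hx'
      exact ⟨m, hm, mod_two_pow_of_succ hm0, rfl⟩
    · obtain ⟨m, hm, hm0, rfl⟩ := exists_el k (i + 1) (by omega) y hy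
      refine ⟨2 ^ i + m, ?_, ?_, (el_add (by omega) hm0).symm⟩
      · obtain ⟨t, rfl⟩ := Nat.dvd_of_mod_eq_zero hm0
        have hp : 2 ^ (i + 1) * 2 ^ k = 2 ^ 15 := by rw [← pow_add]; congr 1; omega
        rw [← hp] at hm
        have ht : t < 2 ^ k := Nat.lt_of_mul_lt_mul_left hm
        have h3 : 2 ^ (i + 1) * (t + 1) ≤ 2 ^ (i + 1) * 2 ^ k := Nat.mul_le_mul_left _ ht
        have h4 : 2 ^ i < 2 ^ (i + 1) := Nat.pow_lt_pow_right (by norm_num) (Nat.lt_succ_self i)
        rw [← hp]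
        rw [mul_add, mul_one] at h3
        omega
      · obtain ⟨t, rfl⟩ := Nat.dvd_of_mod_eq_zero hm0
        rw [pow_succ, mul_assoc, Nat.add_mul_mod_self_left, Nat.mod_self]

theorem card_H (hone : ∀ m < 2 ^ 15, el m = 1 → m = 0) :
    ∀ k i, i + k = 15 → Nat.card (H i) = 2 ^ k
  | 0, i, h => by
    have : H i = ⊥ := by
      rw [H, Subgroup.closure_eq_bot_iff]
      rintro _ ⟨j, ⟨hj1, hj2⟩, rfl⟩
      omega
    rw [this, Subgroup.card_bot, pow_zero]
  | k + 1, i, h => by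
    have hi : i < 15 := by omega
    have hnot : sgen i ∉ H (i + 1) := by
      intro hm
      obtain ⟨m, hmlt, hm0, e⟩ := exists_el k (i + 1) (by omega) _ (inv_mem hm)
      obtain ⟨t, rfl⟩ := Nat.dvd_of_mod_eq_zero hm0
      have h1 : el (2 ^ i + 2 ^ (i + 1) * t) = 1 := by
        rw [el_add hi hm0, ← e, mul_inv_cancel]
      have hlt : 2 ^ i + 2 ^ (i + 1) * t < 2 ^ 15 := by
        have hp : 2 ^ (i + 1) * 2 ^ k = 2 ^ 15 := by rw [← pow_add]; congr 1; omega
        rw [← hp] at hmlt ⊢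
        have ht : t < 2 ^ k := Nat.lt_of_mul_lt_mul_left hmlt
        have h3 : 2 ^ (i + 1) * (t + 1) ≤ 2 ^ (i + 1) * 2 ^ k := Nat.mul_le_mul_left _ ht
        have h4 : 2 ^ i < 2 ^ (i + 1) := Nat.pow_lt_pow_right (by norm_num) (Nat.lt_succ_self i)
        rw [mul_add, mul_one] at h3
        omega
      have := hone _ hlt h1
      have : 0 < 2 ^ i := Nat.two_pow_pos i
      omega
    let f : H (i + 1) × Bool → H i := fun p =>
      ⟨bif p.2 then sgen i * p.1.1 else p.1.1, by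
        cases p.2
        · exact H_succ_le i p.1.2
        · exact mul_mem (Subgroup.subset_closure ⟨i, ⟨le_rfl, hi⟩, rfl⟩) (H_succ_le i p.1.2)⟩
    have hf : Function.Bijective f := by
      constructor
      · rintro ⟨a, s⟩ ⟨b, t⟩ e
        have e' := congrArg Subtype.val e
        cases s <;> cases t <;> simp only [f, cond_true, cond_false] at e'
        · simp [Subtype.ext e']
        · exfalso
          refine hnot ?_
          rw [eq_mul_inv_of_mul_eq e'.symm]
          exact mul_mem a.2 (inv_mem b.2)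
        · exfalso
          refine hnot ?_
          rw [eq_mul_inv_of_mul_eq e']
          exact mul_mem b.2 (inv_mem a.2)
        · simp [Subtype.ext (mul_left_cancel e')]
      · rintro ⟨x, hx⟩
        rcases H_cases hi hx with hx' | ⟨y, hy, rfl⟩
        · exact ⟨(⟨x, hx'⟩, false), rfl⟩
        · exact ⟨(⟨y, hy⟩, true), rfl⟩
    rw [← Nat.card_eq_of_bijective f hf, Nat.card_prod, card_H hone k (i + 1) (by omega)]
    simp [pow_succ]

theorem H_zero_le : H 0 ≤ G 0 := by
  rw [H, Subgroup.closure_le]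
  rintro _ ⟨j, -, rfl⟩
  exact sgen_mem j

end CfsgLib.StdRu
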