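import Cfsg.Agent.StdRu.TableDefs

/-!
Checks of tables.
-/

set_option autoImplicit false
set_option maxRecDepth 100000

namespace CfsgLib.StdRu

theorem table0 : tableOK 0 = true := by decide +kernel

theorem table1 : tableOK 1 = true := by decide +kernel

theorem table2 : tableOK 2 = true := by decide +kernel

theorem table3 : tableOK 3 = true := by decide +kernel

theorem table4 : tableOK 4 = true := by decide +kernel

end CfsgLib.StdRu
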