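import Cfsg.Agent.StdRu.TableDefs

/-!
Checks of tables.
-/

set_option autoImplicit false
set_option maxRecDepth 100000

namespace CfsgLib.StdRu

theorem table5 : tableOK 5 = true := by decide +kernel

theorem table6 : tableOK 6 = true := by decide +kernel

theorem table7 : tableOK 7 = true := by decide +kernel

theorem table8 : tableOK 8 = true := by decide +kernel

theorem table9 : tableOK 9 = true := by decide +kernel

end CfsgLib.StdRu
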