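import Cfsg.Agent.StdRu.TableDefs

/-!
Checks of tables.
-/

set_option autoImplicit false
set_option maxRecDepth 100000

namespace CfsgLib.StdRu

theorem table10 : tableOK 10 = true := by decide +kernel

theorem table11 : tableOK 11 = true := by decide +kernel

theorem table12 : tableOK 12 = true := by decide +kernel

theorem table13 : tableOK 13 = true := by decide +kernel

theorem table14 : tableOK 14 = true := by decide +kernel

end CfsgLib.StdRu
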