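import Cfsg.Agent.Rudvalis.MultCheck
import Cfsg.Agent.StdRu.TableA
import Cfsg.Agent.StdRu.TableB
import Cfsg.Agent.StdRu.TableC

/-!
The generators of a Sylow 2-subgroup of the double cover of the Rudvalis group and their tables.
-/

set_option autoImplicit false
set_option maxRecDepth 100000

namespace CfsgLib.StdRu

open CfsgLib.Rudvalis CfsgLib.CosetEnum Cfsg Cfsg.Spor

theorem swrd_ge {i : ℕ} (h : 14 ≤ i) : swrd i = gwrd14 ∧ stab i = gtab14 := by
  obtain ⟨k, rfl⟩ := Nat.exists_eq_add_of_le h
  rw [Nat.add_comm]
  exact ⟨rfl, rfl⟩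

theorem table_all (i : ℕ) : tableOK i = true := by
  rcases Nat.lt_or_ge i 14 with h | h
  · interval_cases i
    exacts [table0, table1, table2, table3, table4, table5, table6, table7, table8, table9,
      table10, table11, table12, table13]
  · have := table14
    simp only [tableOK, (swrd_ge h).1, (swrd_ge h).2, (swrd_ge (le_refl 14)).1,
      (swrd_ge (le_refl 14)).2] at this ⊢
    exact this

theorem swrd_lt (i : ℕ) : ∀ l ∈ swrd i, l < 22 := by
  have h := table_all i
  simp only [tableOK, Bool.and_eq_true, List.all_eq_true, Nat.blt, Nat.ble_eq] at h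
  exact fun l hl => h.1 l hl

theorem act_swrd (i : ℕ) {n : ℕ} (hn : n < NV) : act (swrd i) n = imgT (stab i) n := by
  have h := table_all i
  simp only [tableOK, Bool.and_eq_true, List.all_eq_true, List.mem_range, forceN_eq, Nat.beq_eq,
    actF_eq] at h
  obtain ⟨c, u, hu, rfl⟩ : ∃ c u, u < 4 ∧ n = 4 * c + u := ⟨n / 4, n % 4, by omega, by omega⟩
  have hc : c < 4060 := by simp only [NV] at hn; omega
  induction u with
  | zero => exact h.2 c hc
  | succ u ih =>
    have e : imulI (4 * c + u) = 4 * c + (u + 1) := by unfold imulI; omega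
    rw [← e, act_imul, imgT_imul, ih (by omega) (by omega)]

/-- The generators, as elements of the lattice group. -/
def sgen (i : ℕ) : fourRu := gword E (swrd i)

theorem sgen_mem (i : ℕ) : sgen i ∈ G 0 :=
  gword_mem _ _ fun l hl => E_mem_zero (swrd_lt i l hl)

theorem moved_sgen (i : ℕ) (n : V) : (moved (sgen i) n).val = imgT (stab i) n.val := by
  rw [sgen, moved_word _ (swrd_lt i), act_swrd i n.2]

/-- Apply the product of the generators selected by a mask, from position `i` on. -/
def appFrom : ℕ → ℕ → ℕ → ℕ → ℕ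
  | 0, _, _, x => x
  | k + 1, i, m, x =>
    forceN (appFrom k (i + 1) m x) fun y =>
      if Nat.beq ((m >>> i) % 2) 0 then y else imgT (stab i) y

/-- The image of an index under the element of a mask. -/
def appM (m x : ℕ) : ℕ := appFrom 15 0 m x

/-- The product of the generators selected by a mask, from position `i` on. -/
def elFrom : ℕ → ℕ → ℕ → fourRu
  | 0, _, _ => 1
  | k + 1, i, m => if Nat.beq ((m >>> i) % 2) 0 then elFrom k (i + 1) m else sgen i * elFrom k (i + 1) m

/-- The element of a mask. -/
def el (m : ℕ) : fourRu := elFrom 15 0 m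

theorem moved_elFrom : ∀ (k i m : ℕ) (n : V), (moved (elFrom k i m) n).val = appFrom k i m n.val
  | 0, _, _, n => by rw [elFrom, moved_one]; rfl
  | k + 1, i, m, n => by
    rw [elFrom, appFrom, forceN_eq]
    split
    · exact moved_elFrom k (i + 1) m n
    · rw [moved_mul, moved_sgen, moved_elFrom k (i + 1) m n]

theorem moved_el (m : ℕ) (n : V) : (moved (el m) n).val = appM m n.val := moved_elFrom 15 0 m n

theorem elFrom_mem : ∀ k i m, elFrom k i m ∈ G 0
  | 0, _, _ => one_mem _
  | k + 1, i, m => by
    rw [elFrom]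
    split
    · exact elFrom_mem k (i + 1) m
    · exact mul_mem (sgen_mem i) (elFrom_mem k (i + 1) m)

theorem el_mem (m : ℕ) : el m ∈ G 0 := elFrom_mem 15 0 m

end CfsgLib.StdRu
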