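import Cfsg.Agent.Rudvalis.Letters
import Cfsg.Agent.StdRu.TableData

/-!
The generators of a Sylow 2-subgroup of the double cover of the Rudvalis group and their tables.
-/

set_option autoImplicit false
set_option maxRecDepth 100000

namespace CfsgLib.StdRu

open CfsgLib.Rudvalis CfsgLib.CosetEnum Cfsg Cfsg.Spor

/-- The tables. -/
def stab : ℕ → ℕ
  | 0 => gtab0
  | 1 => gtab1
  | 2 => gtab2
  | 3 => gtab3
  | 4 => gtab4
  | 5 => gtab5
  | 6 => gtab6
  | 7 => gtab7
  | 8 => gtab8
  | 9 => gtab9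
  | 10 => gtab10
  | 11 => gtab11
  | 12 => gtab12
  | 13 => gtab13
  | _ => gtab14

/-- The words. -/
def swrd : ℕ → List ℕ
  | 0 => gwrd0
  | 1 => gwrd1
  | 2 => gwrd2
  | 3 => gwrd3
  | 4 => gwrd4
  | 5 => gwrd5
  | 6 => gwrd6
  | 7 => gwrd7
  | 8 => gwrd8
  | 9 => gwrd9
  | 10 => gwrd10
  | 11 => gwrd11
  | 12 => gwrd12
  | 13 => gwrd13
  | _ => gwrd14

/-- The action of a word, evaluated from the right. -/
def actF : List ℕ → ℕ → ℕ
  | [], n => n
  | l :: w, n => forceN (actF w n) fun m => img l m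

theorem actF_eq : ∀ (w : List ℕ) (n : ℕ), actF w n = act w n
  | [], _ => rfl
  | l :: w, n => by rw [actF, forceN_eq, actF_eq w n, act]

/-- The check of one table. -/
def tableOK (i : ℕ) : Bool :=
  (swrd i).all (fun l => Nat.blt l 22) &&
  (List.range 4060).all fun c => forceN (4 * c) fun n => Nat.beq (actF (swrd i) n) (imgT (stab i) n)

end CfsgLib.StdRu
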